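import Mathlib

/-!
# Involutions of alternating groups lie in the derived group of their centralizer
-/

set_option autoImplicit false

namespace Cfsg.Agent.H80.CentTwoAlt

open Equiv Equiv.Perm

variable {n : ℕ}

/-- A double transposition inside an involution is a commutator in its centralizer. -/
theorem double_mem (hn : 6 ≤ n) {r : alternatingGroup (Fin n)} (hr : (r : Perm (Fin n)) * r = 1)
    {a b c d : Fin n} (hab : a ≠ b) (hac : a ≠ c) (had : a ≠ d) (hbc : b ≠ c) (hbd : b ≠ d)
    (hcd : c ≠ d) (ra : (r : Perm (Fin n)) a = b) (rc : (r : Perm (Fin n)) c = d) :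
    ∃ x y : alternatingGroup (Fin n), x ∈ Subgroup.centralizer {r} ∧
      y ∈ Subgroup.centralizer {r} ∧
      ((x * y * x⁻¹ * y⁻¹ : alternatingGroup (Fin n)) : Perm (Fin n)) = swap a b * swap c d := by
  have rr : ∀ x, (r : Perm (Fin n)) ((r : Perm (Fin n)) x) = x := fun x => by
    rw [← Perm.mul_apply, hr, Perm.one_apply]
  have rb : (r : Perm (Fin n)) b = a := by rw [← ra, rr]
  have rd : (r : Perm (Fin n)) d = c := by rw [← rc, rr]
  have rinj := (r : Perm (Fin n)).injective
  obtain ⟨e, f, hef, hea, heb, hec, hed, hfa, hfb, hfc, hfd, hre, hrf⟩ :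
      ∃ e f, e ≠ f ∧ e ≠ a ∧ e ≠ b ∧ e ≠ c ∧ e ≠ d ∧ f ≠ a ∧ f ≠ b ∧ f ≠ c ∧ f ≠ d ∧
        (((r : Perm (Fin n)) e = f ∧ (r : Perm (Fin n)) f = e) ∨
          ((r : Perm (Fin n)) e = e ∧ (r : Perm (Fin n)) f = f)) ∧ True := by
    have hcard : 2 ≤ (({a, b, c, d} : Finset (Fin n))ᶜ).card := by
      rw [Finset.card_compl, Fintype.card_fin,
        show ({a, b, c, d} : Finset (Fin n)).card = 4 by simp [hab, hac, had, hbc, hbd, hcd]]
      omega
    by_cases hmv : ∃ e, (e ≠ a ∧ e ≠ b ∧ e ≠ c ∧ e ≠ d) ∧ (r : Perm (Fin n)) e ≠ e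
    · obtain ⟨e, ⟨h1, h2, h3, h4⟩, hne⟩ := hmv
      refine ⟨e, (r : Perm (Fin n)) e, hne.symm, h1, h2, h3, h4, ?_, ?_, ?_, ?_, .inl ⟨rfl, rr e⟩,
        trivial⟩
      · exact fun h => h2 (rinj (h.trans rb.symm))
      · exact fun h => h1 (rinj (h.trans ra.symm))
      · exact fun h => h4 (rinj (h.trans rd.symm))
      · exact fun h => h3 (rinj (h.trans rc.symm))
    · obtain ⟨e, he, f, hf, hef⟩ := Finset.one_lt_card.mp (show 1 < _ from hcard)
      simp only [Finset.mem_compl, Finset.mem_insert, Finset.mem_singleton, not_or] at he hf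
      push_neg at hmv
      exact ⟨e, f, hef, he.1, he.2.1, he.2.2.1, he.2.2.2, hf.1, hf.2.1, hf.2.2.1, hf.2.2.2,
        .inr ⟨hmv e he, hmv f hf⟩, trivial⟩
  have ev : ∀ {p q s u : Fin n}, p ≠ q → s ≠ u →
      swap p q * swap s u ∈ alternatingGroup (Fin n) := fun h h' => by
    rw [Perm.mem_alternatingGroup, map_mul, sign_swap h, sign_swap h']; rfl
  have others : ∀ x, x ≠ a → x ≠ b → x ≠ c → x ≠ d →
      (r : Perm (Fin n)) x ≠ a ∧ (r : Perm (Fin n)) x ≠ b ∧ (r : Perm (Fin n)) x ≠ c ∧
        (r : Perm (Fin n)) x ≠ d := fun x h1 h2 h3 h4 =>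
    ⟨fun h => h2 (rinj (h.trans rb.symm)), fun h => h1 (rinj (h.trans ra.symm)),
      fun h => h4 (rinj (h.trans rd.symm)), fun h => h3 (rinj (h.trans rc.symm))⟩
  refine ⟨⟨swap a c * swap b d, ev hac hbd⟩, ⟨swap a b * swap e f, ev hab hef⟩, ?_, ?_, ?_⟩
  · rw [Subgroup.mem_centralizer_singleton_iff]
    apply Subtype.ext
    refine Equiv.ext fun x => ?_
    simp only [Subgroup.coe_mul, Perm.mul_apply]
    by_cases hxa : x = a
    · subst hxa; simp [ra, rc, swap_apply_def, hab, hac, had, hbc, hbd, hcd, hab.symm, hac.symm,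
        had.symm, hbc.symm, hbd.symm, hcd.symm]
    by_cases hxb : x = b
    · subst hxb; simp [rb, rd, swap_apply_def, hab, hac, had, hbc, hbd, hcd, hab.symm, hac.symm,
        had.symm, hbc.symm, hbd.symm, hcd.symm]
    by_cases hxc : x = c
    · subst hxc; simp [ra, rc, swap_apply_def, hab, hac, had, hbc, hbd, hcd, hab.symm, hac.symm,
        had.symm, hbc.symm, hbd.symm, hcd.symm]
    by_cases hxd : x = d
    · subst hxd; simp [rb, rd, swap_apply_def, hab, hac, had, hbc, hbd, hcd, hab.symm, hac.symm,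
        had.symm, hbc.symm, hbd.symm, hcd.symm]
    obtain ⟨h1, h2, h3, h4⟩ := others x hxa hxb hxc hxd
    simp [swap_apply_def, hxa, hxb, hxc, hxd, h1, h2, h3, h4]
  · rw [Subgroup.mem_centralizer_singleton_iff]
    apply Subtype.ext
    refine Equiv.ext fun x => ?_
    simp only [Subgroup.coe_mul, Perm.mul_apply]
    by_cases hxa : x = a
    · subst hxa; simp [ra, rb, swap_apply_def, hab, hab.symm, hea.symm, hfa.symm, heb.symm, hfb.symm]
    by_cases hxb : x = b
    · subst hxb; simp [ra, rb, swap_apply_def, hab, hab.symm, hea.symm, hfa.symm, heb.symm, hfb.symm]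
    by_cases hxe : x = e
    · subst hxe
      rcases hre with ⟨u1, u2⟩ | ⟨u1, u2⟩ <;>
        simp [u1, u2, swap_apply_def, hef, hef.symm, hea, hfa, heb, hfb]
    by_cases hxf : x = f
    · subst hxf
      rcases hre with ⟨u1, u2⟩ | ⟨u1, u2⟩ <;>
        simp [u1, u2, swap_apply_def, hef, hef.symm, hea, hfa, heb, hfb]
    have h1 : (r : Perm (Fin n)) x ≠ a := fun h => hxb (rinj (h.trans rb.symm))
    have h2 : (r : Perm (Fin n)) x ≠ b := fun h => hxa (rinj (h.trans ra.symm))
    have h3 : (r : Perm (Fin n)) x ≠ e := by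
      rcases hre with ⟨u1, u2⟩ | ⟨u1, u2⟩
      · exact fun h => hxf (rinj (h.trans u2.symm))
      · exact fun h => hxe (rinj (h.trans u1.symm))
    have h4 : (r : Perm (Fin n)) x ≠ f := by
      rcases hre with ⟨u1, u2⟩ | ⟨u1, u2⟩
      · exact fun h => hxe (rinj (h.trans u1.symm))
      · exact fun h => hxf (rinj (h.trans u2.symm))
    simp [swap_apply_def, hxa, hxb, hxe, hxf, h1, h2, h3, h4]
  · simp only [Subgroup.coe_mul, InvMemClass.coe_inv, mul_inv_rev, swap_inv]
    refine Equiv.ext fun x => ?_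
    simp only [Perm.mul_apply]
    by_cases hxa : x = a
    · subst hxa; simp [swap_apply_def, hab, hac, had, hbc, hbd, hcd, hab.symm, hac.symm, had.symm,
        hbc.symm, hbd.symm, hcd.symm, hea.symm, heb.symm, hec.symm, hed.symm, hfa.symm, hfb.symm,
        hfc.symm, hfd.symm]
    by_cases hxb : x = b
    · subst hxb; simp [swap_apply_def, hab, hac, had, hbc, hbd, hcd, hab.symm, hac.symm, had.symm,
        hbc.symm, hbd.symm, hcd.symm, hea.symm, heb.symm, hec.symm, hed.symm, hfa.symm, hfb.symm,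
        hfc.symm, hfd.symm]
    by_cases hxc : x = c
    · subst hxc; simp [swap_apply_def, hab, hac, had, hbc, hbd, hcd, hab.symm, hac.symm, had.symm,
        hbc.symm, hbd.symm, hcd.symm, hea.symm, heb.symm, hec.symm, hed.symm, hfa.symm, hfb.symm,
        hfc.symm, hfd.symm]
    by_cases hxd : x = d
    · subst hxd; simp [swap_apply_def, hab, hac, had, hbc, hbd, hcd, hab.symm, hac.symm, had.symm,
        hbc.symm, hbd.symm, hcd.symm, hea.symm, heb.symm, hec.symm, hed.symm, hfa.symm, hfb.symm,
        hfc.symm, hfd.symm]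
    by_cases hxe : x = e
    · subst hxe; simp [swap_apply_def, hef, hef.symm, hea, heb, hec, hed, hfa, hfb, hfc, hfd]
    by_cases hxf : x = f
    · subst hxf; simp [swap_apply_def, hef, hef.symm, hea, heb, hec, hed, hfa, hfb, hfc, hfd]
    simp [swap_apply_def, hxa, hxb, hxc, hxd, hxe, hxf]

/-- An involution of an alternating group of degree at least six is a product of commutators of
elements centralizing it. -/
theorem involution_mem_commutator (hn : 6 ≤ n) (r : alternatingGroup (Fin n)) (hr : r * r = 1) :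
    r ∈ ⁅Subgroup.centralizer {r}, Subgroup.centralizer {r}⁆ := by
  have hr' : (r : Perm (Fin n)) * r = 1 := congrArg Subtype.val hr
  suffices h : ∀ k : ℕ, ∀ u : alternatingGroup (Fin n),
      (u : Perm (Fin n)).support.card = k →
      (∀ x, (u : Perm (Fin n)) x = x ∨ (u : Perm (Fin n)) x = (r : Perm (Fin n)) x) →
      (u : Perm (Fin n)) * u = 1 → u ∈ ⁅Subgroup.centralizer {r}, Subgroup.centralizer {r}⁆ from
    h _ r rfl (fun x => .inr rfl) hr'
  intro k
  induction k using Nat.strong_induction_on with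
  | _ k ih =>
  intro u hk hu huu
  by_cases h1 : u = 1
  · exact h1 ▸ one_mem _
  have uu : ∀ x, (u : Perm (Fin n)) ((u : Perm (Fin n)) x) = x := fun x => by
    rw [← Perm.mul_apply, huu, Perm.one_apply]
  obtain ⟨a, ha⟩ : ∃ a, (u : Perm (Fin n)) a ≠ a := by
    by_contra h
    push_neg at h
    exact h1 (Subtype.ext (Equiv.ext h))
  set b := (u : Perm (Fin n)) a with hb
  have hba : (u : Perm (Fin n)) b = a := uu a
  obtain ⟨c, hc, hca, hcb⟩ : ∃ c, (u : Perm (Fin n)) c ≠ c ∧ c ≠ a ∧ c ≠ b := by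
    by_contra h
    push_neg at h
    have hs : (u : Perm (Fin n)) = swap a b := by
      refine Equiv.ext fun x => ?_
      by_cases hxa : x = a
      · subst hxa; simp [hb]
      by_cases hxb : x = b
      · rw [hxb, swap_apply_right, hba]
      rw [swap_apply_of_ne_of_ne hxa hxb]
      by_contra hx
      exact hxb (h x hx hxa)
    have := Perm.mem_alternatingGroup.mp u.2
    rw [hs, sign_swap (Ne.symm ha)] at this
    exact absurd this (by decide)
  set d := (u : Perm (Fin n)) c with hd
  have hdc : (u : Perm (Fin n)) d = c := uu c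
  have hab : a ≠ b := Ne.symm ha
  have hcd : c ≠ d := Ne.symm hc
  have had : a ≠ d := fun h => hcb (by rw [← hdc, ← h])
  have hbd : b ≠ d := fun h => hca ((u : Perm (Fin n)).injective h).symm
  have ra : (r : Perm (Fin n)) a = b := ((hu a).resolve_left ha).symm
  have rc : (r : Perm (Fin n)) c = d := ((hu c).resolve_left hc).symm
  obtain ⟨x, y, hx, hy, hxy⟩ := double_mem hn hr' hab hca.symm had hcb.symm hbd hcd ra rc
  set w : alternatingGroup (Fin n) := x * y * x⁻¹ * y⁻¹ with hw
  have hwm : w ∈ ⁅Subgroup.centralizer {r}, Subgroup.centralizer {r}⁆ :=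
    Subgroup.commutator_mem_commutator hx hy
  have hval : ∀ z, ((u * w : alternatingGroup (Fin n)) : Perm (Fin n)) z =
      if z = a ∨ z = b ∨ z = c ∨ z = d then z else (u : Perm (Fin n)) z := by
    intro z
    simp only [Subgroup.coe_mul, hxy, Perm.mul_apply]
    by_cases hza : z = a
    · subst hza; simp [swap_apply_def, hab.symm, hca.symm, had, hcb.symm, hbd, hba]
    by_cases hzb : z = b
    · subst hzb; simp [swap_apply_def, hab, hcb.symm, hbd, hca.symm, had, ← hb]
    by_cases hzc : z = c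
    · subst hzc; simp [swap_apply_def, hcd.symm, hca, hcb, had.symm, hbd.symm, hdc]
    by_cases hzd : z = d
    · subst hzd; simp [swap_apply_def, hcd, hca, hcb, had.symm, hbd.symm, ← hd]
    simp [swap_apply_def, hza, hzb, hzc, hzd]
  have hlt : ((u * w : alternatingGroup (Fin n)) : Perm (Fin n)).support.card < k := by
    rw [← hk]
    refine Finset.card_lt_card (Finset.ssubset_iff_subset_ne.mpr ⟨fun z hz => ?_, fun h => ?_⟩)
    · rw [Perm.mem_support] at hz ⊢
      rw [hval] at hz
      split_ifs at hz with h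
      · exact absurd rfl hz
      · exact hz
    · have : a ∈ (u : Perm (Fin n)).support := Perm.mem_support.mpr ha
      rw [← h, Perm.mem_support, hval, if_pos (.inl rfl)] at this
      exact this rfl
  have hmem := ih _ hlt (u * w) rfl (fun z => by
    rw [hval]; split_ifs
    · exact .inl rfl
    · exact hu z) (by
    refine Equiv.ext fun z => ?_
    rw [Perm.mul_apply, hval z, Perm.one_apply]
    split_ifs with h
    · rw [hval, if_pos h]
    · rw [hval, if_neg, uu]
      intro h'
      apply h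
      rcases h' with e | e | e | e
      · exact .inr (.inl (by rw [hb, ← e, uu]))
      · exact .inl (by rw [← hba, ← e, uu])
      · exact .inr (.inr (.inr (by rw [hd, ← e, uu])))
      · exact .inr (.inr (.inl (by rw [← hdc, ← e, uu]))))
  have : u = u * w * w⁻¹ := by group
  rw [this]
  exact mul_mem hmem (inv_mem hwm)

end Cfsg.Agent.H80.CentTwoAlt
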