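import Cfsg.Prelude.Def_SporadicB
import Cfsg.Prelude.Def_TwoFusion
import Cfsg.Agent.H80.CentTwoAlt.PermLemma
import Cfsg.Agent.H80.CentTwoAlt.Elementary
import Cfsg.Agent.H19.Cores
import Cfsg.Agent.S0058
import Cfsg.Agent.S0111

/-!
# An involution with centralizer the product of itself with an alternating group
-/

set_option autoImplicit false

namespace Cfsg.Agent.H80.CentTwoAlt

open Subgroup

variable {G : Type*} [Group G]

/-- The map from the group of order two. -/
def twoHom (J : G) (hJ : J * J = 1) : Multiplicative (ZMod 2) →* G where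
  toFun a := if a = 1 then 1 else J
  map_one' := if_pos rfl
  map_mul' a b := by
    rcases (by decide : ∀ x : Multiplicative (ZMod 2), x = 1 ∨ x = Multiplicative.ofAdd 1) a with
      rfl | rfl <;>
    rcases (by decide : ∀ x : Multiplicative (ZMod 2), x = 1 ∨ x = Multiplicative.ofAdd 1) b with
      rfl | rfl <;>
    simp [hJ, show Multiplicative.ofAdd (1 : ZMod 2) * Multiplicative.ofAdd 1 = 1 by decide]

theorem exponent_four : ∀ p : Multiplicative (ZMod 2) × alternatingGroup (Fin 4),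
    p ^ 8 = 1 → p * p = 1 := by decide +kernel

theorem exponent_five : ∀ p : Multiplicative (ZMod 2) × alternatingGroup (Fin 5),
    p ^ 8 = 1 → p * p = 1 := by decide +kernel

/-- The data. -/
structure Data (J : G) (T : Subgroup G) : Prop where
  two : orderOf J = 2
  prod : Cfsg.IsInternalDirectProduct (zpowers J) T (centralizer ({J} : Set G))

namespace Data

variable {J : G} {T : Subgroup G} (D : Data J T)

include D

theorem mul_self : J * J = 1 := by rw [← pow_two, ← D.two, pow_orderOf_eq_one]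

theorem ne_one : J ≠ 1 := fun h => by
  have := D.two
  rw [h, orderOf_one] at this
  omega

theorem le : T ≤ centralizer ({J} : Set G) := D.prod.2.1

theorem comm {y : G} (hy : y ∈ T) : Commute J y := D.prod.2.2.1 J (mem_zpowers J) y hy

theorem not_mem : J ∉ T := fun h =>
  D.ne_one (Subgroup.mem_bot.mp (D.prod.2.2.2.1 ▸ mem_inf.mpr ⟨mem_zpowers J, h⟩))

theorem decomp {x : G} (hx : x ∈ centralizer ({J} : Set G)) :
    ∃ y ∈ T, x = y ∨ x = J * y := by
  rw [← D.prod.2.2.2.2] at hx
  have hn : zpowers J ≤ normalizer (T : Set G) := by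
    refine le_trans ?_ (centralizer_le_normalizer _)
    intro z hz
    obtain ⟨k, rfl⟩ := hz
    exact mem_centralizer_iff.mpr fun y hy => ((D.comm hy).zpow_left k).symm
  rw [← SetLike.mem_coe, coe_mul_of_left_le_normalizer_right _ _ hn] at hx
  obtain ⟨z, ⟨k, rfl⟩, y, hy, rfl⟩ := hx
  refine ⟨y, hy, ?_⟩
  rcases Int.even_or_odd k with ⟨c, rfl⟩ | ⟨c, rfl⟩
  · left
    show J ^ (c + c) * y = y
    rw [← two_mul, zpow_mul, zpow_ofNat, pow_two, D.mul_self, one_zpow, one_mul]
  · right
    show J ^ (2 * c + 1) * y = J * y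
    rw [zpow_add, zpow_mul, zpow_ofNat, pow_two, D.mul_self, one_zpow, one_mul, zpow_one]

theorem comm' (a : Multiplicative (ZMod 2)) (y : T) :
    Commute (twoHom J D.mul_self a) (y : G) := by
  show Commute (if a = 1 then 1 else J) (y : G)
  split_ifs
  · exact Commute.one_left _
  · exact D.comm y.2

/-- The centralizer as a direct product. -/
theorem exists_equiv {A : Type*} [Group A] (e : T ≃* A) :
    ∃ f : centralizer ({J} : Set G) ≃* Multiplicative (ZMod 2) × A,
      f ⟨J, mem_centralizer_singleton_iff.mpr rfl⟩ = (Multiplicative.ofAdd 1, 1) := by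
  let ψ : Multiplicative (ZMod 2) × T →* G :=
    (twoHom J D.mul_self).noncommCoprod T.subtype D.comm'
  have hψ : ∀ p : Multiplicative (ZMod 2) × T,
      ψ p = (if p.1 = 1 then 1 else J) * (p.2 : G) := fun p => rfl
  have hmem : ∀ p, ψ p ∈ centralizer ({J} : Set G) := fun p => by
    rw [hψ]
    refine mul_mem ?_ (D.le p.2.2)
    split_ifs
    · exact one_mem _
    · exact mem_centralizer_singleton_iff.mpr rfl
  have hinj : Function.Injective (ψ.codRestrict _ hmem) := by
    rw [← MonoidHom.ker_eq_bot_iff, Subgroup.eq_bot_iff_forall]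
    rintro ⟨a, y⟩ hp
    have h : (if a = 1 then 1 else J) * (y : G) = 1 := congrArg Subtype.val hp
    by_cases ha : a = 1
    · rw [if_pos ha, one_mul] at h
      exact Prod.ext ha (Subtype.ext h)
    · rw [if_neg ha] at h
      refine absurd ?_ D.not_mem
      rw [eq_inv_of_mul_eq_one_left h]
      exact inv_mem y.2
  have hsurj : Function.Surjective (ψ.codRestrict _ hmem) := by
    rintro ⟨x, hx⟩
    obtain ⟨y, hy, rfl | rfl⟩ := D.decomp hx
    · exact ⟨(1, ⟨x, hy⟩), Subtype.ext ((hψ _).trans (by simp))⟩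
    · exact ⟨(Multiplicative.ofAdd 1, ⟨y, hy⟩), Subtype.ext ((hψ _).trans (by simp))⟩
  let E := MulEquiv.ofBijective _ ⟨hinj, hsurj⟩
  refine ⟨E.symm.trans ((MulEquiv.refl _).prodCongr e), ?_⟩
  have : E (Multiplicative.ofAdd 1, 1) = ⟨J, mem_centralizer_singleton_iff.mpr rfl⟩ :=
    Subtype.ext ((hψ _).trans (by simp))
  rw [← this, MulEquiv.trans_apply, MulEquiv.symm_apply_apply]
  exact Prod.ext rfl (map_one e)

/-- The derived subgroup of the centralizer avoids `J`. -/
theorem commutator_le :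
    ⁅centralizer ({J} : Set G), centralizer ({J} : Set G)⁆ ≤ T := by
  rw [Subgroup.commutator_le]
  intro a ha b hb
  obtain ⟨y, hy, hay⟩ := D.decomp ha
  obtain ⟨z, hz, hbz⟩ := D.decomp hb
  obtain ⟨i, hi, rfl⟩ : ∃ i : G, (i = 1 ∨ i = J) ∧ a = i * y := by
    rcases hay with h | h
    exacts [⟨1, .inl rfl, by rw [h, one_mul]⟩, ⟨J, .inr rfl, h⟩]
  obtain ⟨j, hj, rfl⟩ : ∃ j : G, (j = 1 ∨ j = J) ∧ b = j * z := by
    rcases hbz with h | h
    exacts [⟨1, .inl rfl, by rw [h, one_mul]⟩, ⟨J, .inr rfl, h⟩]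
  have cy : ∀ {w : G}, w ∈ T → ∀ {i : G}, (i = 1 ∨ i = J) → Commute i w := by
    intro w hw i hi
    rcases hi with rfl | rfl
    exacts [Commute.one_left _, D.comm hw]
  have cij : Commute i j := by
    rcases hi with rfl | rfl
    · exact Commute.one_left _
    rcases hj with rfl | rfl
    exacts [Commute.one_right _, Commute.refl _]
  rw [commutatorElement_def, mul_inv_rev, mul_inv_rev]
  have : i * y * (j * z) * (y⁻¹ * i⁻¹) * (z⁻¹ * j⁻¹) = y * z * y⁻¹ * z⁻¹ := by
    rw [(cy hy hi).eq, show y * i * (j * z) = y * (i * (j * z)) by group, ← mul_assoc i,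
      cij.eq, mul_assoc j, (cy hz hi).eq, ← mul_assoc j, (cy hz hj).eq]
    simp only [mul_assoc]
    rw [← mul_assoc j i, cij.symm.eq, mul_assoc i j, show i * (j * (y⁻¹ * (i⁻¹ * (z⁻¹ * j⁻¹)))) =
      y⁻¹ * z⁻¹ by
        rw [← mul_assoc j, (cy (inv_mem hy) hj).eq, mul_assoc, ← mul_assoc i, (cy (inv_mem hy) hi).eq,
          mul_assoc, ← mul_assoc i j, cij.eq, mul_assoc j i, ← mul_assoc i i⁻¹, mul_inv_cancel,
          one_mul, ← mul_assoc j, (cy (inv_mem hz) hj).eq, mul_assoc, mul_inv_cancel, mul_one]]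
  rw [this]
  exact mul_mem (mul_mem (mul_mem hy hz) (inv_mem hy)) (inv_mem hz)

variable [Finite G]

/-- The structure of the Sylow subgroups and the degree. -/
theorem shape (hJ : Cfsg.IsTwoCentralInvolution J)
    (h2 : ∀ N : Subgroup G, N.Normal → N.index ≠ 2) {m : ℕ}
    (e : T ≃* alternatingGroup (Fin m)) :
    ∃ (S : Sylow 2 G) (r : G), (m = 4 ∨ m = 5) ∧ J ∈ (S : Subgroup G) ∧
      (S : Subgroup G) ≤ centralizer ({J} : Set G) ∧
      Nat.card (S : Subgroup G) = 8 ∧ (∀ x ∈ (S : Subgroup G), x * x = 1) ∧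
      r ∈ T ∧ r * r = 1 ∧ r ≠ 1 := by
  have := Fact.mk Nat.prime_two
  obtain ⟨-, S, hJS, hS⟩ := hJ
  have hSC : (S : Subgroup G) ≤ centralizer ({J} : Set G) := fun x hx =>
    mem_centralizer_singleton_iff.mpr (hS x hx)
  have hrel : ((S : Subgroup G) ⊓ T).relIndex (S : Subgroup G) = 2 := by
    refine Subgroup.index_eq_two_iff.mpr ⟨⟨J, hJS⟩, fun b => ?_⟩
    obtain ⟨y, hy, hb | hb⟩ := D.decomp (hSC b.2)
    · refine Or.inr ⟨?_, fun h => D.not_mem ?_⟩
      · exact mem_subgroupOf.mpr (mem_inf.mpr ⟨b.2, hb ▸ hy⟩)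
      · have h' := (mem_inf.mp (mem_subgroupOf.mp h)).2
        exact ((T.mul_mem_cancel_left (hb ▸ hy)).mp h')
    · refine Or.inl ⟨?_, fun h => D.not_mem ?_⟩
      · refine mem_subgroupOf.mpr (mem_inf.mpr ⟨(b * ⟨J, hJS⟩).2, ?_⟩)
        show (b : G) * J ∈ T
        rw [hb, (D.comm hy).eq, mul_assoc, D.mul_self, mul_one]
        exact hy
      · have h' := (mem_inf.mp (mem_subgroupOf.mp h)).2
        rw [hb] at h'
        exact (T.mul_mem_cancel_right hy).mp h'
  obtain ⟨g, hg⟩ : ∃ g : G, g * J * g⁻¹ ∈ (S : Subgroup G) ⊓ T := by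
    rcases S0111.result S _ inf_le_left hrel J D.two hJS
      (fun h => D.not_mem (mem_inf.mp h).2) with ⟨M, hM, hi, -⟩ | h
    exacts [absurd hi (h2 M hM), h]
  set r : G := g * J * g⁻¹ with hr
  have hrr : r * r = 1 := by
    rw [hr, show g * J * g⁻¹ * (g * J * g⁻¹) = g * (J * J) * g⁻¹ by group, D.mul_self]; group
  have hr1 : r ≠ 1 := fun h => D.ne_one (conj_eq_one_iff.mp h)
  have hrT : r ∈ T := (mem_inf.mp hg).2
  have hrr' : (⟨r, hrT⟩ : T) * ⟨r, hrT⟩ = 1 := Subtype.ext hrr
  have hm6 : m < 6 := by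
    by_contra h
    have h6 := involution_mem_commutator (Nat.not_lt.mp h) (e ⟨r, hrT⟩)
      (by rw [← map_mul, hrr', map_one])
    let φ : alternatingGroup (Fin m) →* G :=
      (MulAut.conj g⁻¹).toMonoidHom.comp (T.subtype.comp e.symm.toMonoidHom)
    have h7 := mem_map_of_mem φ h6
    rw [map_commutator] at h7
    have hle : (centralizer {e ⟨r, hrT⟩}).map φ ≤ centralizer ({J} : Set G) := by
      rintro _ ⟨x, hx, rfl⟩
      have hx' : Commute (e.symm x) (⟨r, hrT⟩ : T) := by
        have := (show Commute x (e ⟨r, hrT⟩) from mem_centralizer_singleton_iff.mp hx).map e.symm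
        rwa [e.symm_apply_apply] at this
      have hx'' : Commute ((e.symm x : T) : G) r := hx'.map T.subtype
      refine mem_centralizer_singleton_iff.mpr ?_
      have h := hx''.map (MulAut.conj g⁻¹).toMonoidHom
      have hJ' : (MulAut.conj g⁻¹).toMonoidHom r = J := by
        show g⁻¹ * (g * J * g⁻¹) * g⁻¹⁻¹ = J
        group
      rw [hJ'] at h
      exact h.eq
    have h8 := D.commutator_le (commutator_mono hle hle h7)
    apply D.not_mem
    have : φ (e ⟨r, hrT⟩) = J := by
      show g⁻¹ * ((e.symm (e ⟨r, hrT⟩) : T) : G) * g⁻¹⁻¹ = J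
      rw [e.symm_apply_apply]
      show g⁻¹ * (g * J * g⁻¹) * g⁻¹⁻¹ = J
      group
    rwa [this] at h8
  have hm4 : 4 ≤ m := by
    by_contra h
    have small : ∀ k : ℕ, k < 4 → ∀ p : alternatingGroup (Fin k), p * p = 1 → p = 1 := by
      intro k hk
      interval_cases k <;> decide +kernel
    have := small m (Nat.not_le.mp h) (e ⟨r, hrT⟩) (by rw [← map_mul, hrr', map_one])
    rw [← map_one e] at this
    exact hr1 (congrArg Subtype.val (e.injective this))
  have hm : m = 4 ∨ m = 5 := by omega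
  obtain ⟨f, -⟩ := D.exists_equiv e
  have hcard : Nat.card (centralizer ({J} : Set G)) = 2 ^ 3 * 3 ∨
      Nat.card (centralizer ({J} : Set G)) = 2 ^ 3 * 15 := by
    rw [Nat.card_congr f.toEquiv, Nat.card_eq_fintype_card]
    rcases hm with rfl | rfl
    · left; decide +kernel
    · right; decide +kernel
  obtain ⟨k, hk⟩ := IsPGroup.iff_card.mp S.2
  have h8 : Nat.card (S : Subgroup G) = 8 := by
    have h1 := relIndex_mul_index hSC
    have hodd : ¬ 2 ∣ (S : Subgroup G).relIndex (centralizer ({J} : Set G)) := fun h =>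
      S.not_dvd_index (h1 ▸ dvd_mul_of_dvd_left h _)
    have h3 := card_mul_index ((S : Subgroup G).subgroupOf (centralizer ({J} : Set G)))
    rw [Nat.card_congr (subgroupOfEquivOfLe hSC).toEquiv, hk] at h3
    change 2 ^ k * (S : Subgroup G).relIndex (centralizer ({J} : Set G)) = _ at h3
    rw [hk]
    generalize (S : Subgroup G).relIndex (centralizer ({J} : Set G)) = x at h3 hodd
    rcases lt_trichotomy k 3 with hk3 | rfl | hk3
    · exfalso
      interval_cases k <;> omega
    · rfl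
    · exfalso
      have : 2 ^ 4 ∣ Nat.card (centralizer ({J} : Set G)) :=
        h3 ▸ dvd_mul_of_dvd_left (pow_dvd_pow 2 hk3) _
      rcases hcard with hc | hc <;> rw [hc] at this <;> norm_num at this
  refine ⟨S, r, hm, hJS, hSC, h8, fun x hx => ?_, hrT, hrr, hr1⟩
  have h1 : (⟨x, hx⟩ : (S : Subgroup G)) ^ 8 = 1 := by rw [← h8]; exact pow_card_eq_one'
  have h2 : (⟨x, hSC hx⟩ : centralizer ({J} : Set G)) ^ 8 = 1 :=
    Subtype.ext (by simpa using congrArg Subtype.val h1)
  have h3 := congrArg f h2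
  rw [map_pow, map_one] at h3
  have key : f ⟨x, hSC hx⟩ * f ⟨x, hSC hx⟩ = 1 := by
    generalize f ⟨x, hSC hx⟩ = p at h3
    rcases hm with rfl | rfl
    · exact exponent_four p h3
    · exact exponent_five p h3
  rw [← map_mul, ← map_one f] at key
  exact congrArg Subtype.val (f.injective key)

end Data

end Cfsg.Agent.H80.CentTwoAlt
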