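import Cfsg.Agent.H80.CentTwoAlt.Chars
import Cfsg.Agent.H80.CentTwoAlt.Arith
import Cfsg.Agent.H30.GLTwoThreeCentralizer
import Cfsg.Agent.H45.Galois
import Cfsg.Agent.H26.CharLinear
import Cfsg.Agent.H38.TIInd

/-!
# The order of a simple group with involution centralizer `C2 × A4` and one class of involutions
-/

set_option autoImplicit false
set_option synthInstance.maxSize 4096
set_option maxHeartbeats 2000000
set_option maxRecDepth 4000

namespace Cfsg.Agent.H80.CentTwoAlt

open scoped ComplexConjugate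
open Cfsg.Agent.H30

/-- A group with a centralizer `C2 × A4` of an involution and a single class of involutions. -/
structure Setting (G : Type*) [Group G] where
  t : G
  e : Subgroup.centralizer ({t} : Set G) ≃* M
  map_t : e ⟨t, Subgroup.mem_centralizer_singleton_iff.mpr rfl⟩ = τ
  fusion : ∀ {x : G}, x * x = 1 → x ≠ 1 → IsConj t x

variable {G : Type*} [Group G] [Fintype G] (S : Setting G)

/-- The centralizer. -/
abbrev Setting.H : Subgroup G := Subgroup.centralizer ({S.t} : Set G)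

omit [Fintype G] in
theorem Setting.card_H : Nat.card S.H = 24 := by
  rw [Nat.card_congr S.e.toEquiv, Nat.card_eq_fintype_card, card_M]

omit [Fintype G] in
theorem Setting.t_mul : S.t * S.t = 1 := by
  have h := S.e.injective (show S.e (⟨S.t, Subgroup.mem_centralizer_singleton_iff.mpr rfl⟩ *
    ⟨S.t, Subgroup.mem_centralizer_singleton_iff.mpr rfl⟩) = S.e 1 by
    rw [map_mul, map_one, S.map_t]; exact tau_ne.2)
  exact congrArg Subtype.val h

omit [Fintype G] in
theorem Setting.t_ne : S.t ≠ 1 := by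
  intro h
  apply tau_ne.1
  rw [← S.map_t, ← _root_.map_one S.e]
  exact congrArg S.e (Subtype.ext h)

/-- Transport to the centralizer. -/
noncomputable def Setting.onH (T : Fin 4 → ℂ) : S.H → ℂ := fun h => ofTable T (S.e h)

/-- The support set. -/
def Setting.special : Set G := {g | g ^ 3 = S.t}

omit [Fintype G] in
theorem Setting.special_ti : ∀ g : G, ∀ x ∈ S.special, g * x * g⁻¹ ∈ S.special →
    g ∈ S.H := by
  intro g x hx hgx
  have h : g * S.t * g⁻¹ = S.t := by
    rw [Setting.special, Set.mem_setOf_eq, conj_pow] at hgx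
    rw [show x ^ 3 = S.t from hx] at hgx
    exact hgx
  exact Subgroup.mem_centralizer_singleton_iff.mpr (mul_inv_eq_iff_eq_mul.mp h)

omit [Fintype G] in
theorem Setting.mem_special_iff (y : S.H) :
    (y : G) ∈ S.special ↔ ((S.e y).1 ≠ 1 ∧ cls (S.e y).2 ≠ 1) := by
  rw [← special_iff, ← map_pow, ← S.map_t, S.e.injective.eq_iff]
  show (y : G) ^ 3 = S.t ↔ _
  rw [Subtype.ext_iff, SubmonoidClass.coe_pow]

omit [Fintype G] in
theorem Setting.onH_supported {T : Fin 4 → ℂ} (hT : T 1 = 0) (y : S.H)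
    (hy : (y : G) ∉ S.special) : S.onH T y = 0 := by
  rw [S.mem_special_iff] at hy
  unfold Setting.onH ofTable
  split_ifs with h
  · rfl
  · rw [show cls (S.e y).2 = 1 by tauto]
    exact hT

theorem Setting.gen_ind {T : Fin 4 → ℂ} (h : Cfsg.IsGeneralizedCharacter M (ofTable T)) :
    Cfsg.IsGeneralizedCharacter G (Cfsg.indFun S.H (S.onH T)) := by
  obtain ⟨a, b, ha, hb, hab⟩ := h
  have e : S.onH T = (fun h => a (S.e h)) - fun h => b (S.e h) := by
    funext x
    simp only [Setting.onH, hab]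
    rfl
  rw [e]
  exact ⟨_, _, H25.isCharacter_indFun _ (H26.isCharacter_comp ha S.e.toMonoidHom),
    H25.isCharacter_indFun _ (H26.isCharacter_comp hb S.e.toMonoidHom),
    H25.indFun_sub _ _ _⟩

theorem Setting.classInner_onH [Fintype S.H] (T U : Fin 4 → ℂ) :
    Cfsg.classInner (S.onH T) (S.onH U) = Cfsg.classInner (ofTable T) (ofTable U) := by
  rw [Cfsg.classInner, Cfsg.classInner, Nat.card_congr S.e.toEquiv]
  congr 1
  exact Equiv.sum_comp S.e.toEquiv fun g => ofTable T g * conj (ofTable U g)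

/-- The number of factorisations of a special element as products of two conjugates of `t`. -/
theorem Setting.count_special (y : S.H) (hy : (y : G) ∈ S.special) :
    Nat.card {p : G × G // IsConj S.t p.1 ∧ IsConj S.t p.2 ∧ p.1 * p.2 = (y : G)} =
      pairTable (cls (S.e y).2) := by
  classical
  obtain ⟨h0, h1⟩ := (S.mem_special_iff y).mp hy
  rw [← pair_count (S.e y) h0 h1]
  have hy15 : (y : G) ^ 3 = S.t := hy
  have hyt : ∀ a b : G, a * a = 1 → b * b = 1 → a * b = (y : G) → a ∈ S.H := by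
    intro a b ha hb hab
    have hinv : a * (y : G) * a⁻¹ = (y : G)⁻¹ := by
      rw [← hab, mul_inv_rev, inv_eq_of_mul_eq_one_right ha, inv_eq_of_mul_eq_one_right hb,
        ← mul_assoc, ha, one_mul]
    have h1 : a * S.t * a⁻¹ = S.t := by
      rw [← hy15, ← conj_pow, hinv, inv_pow, hy15, inv_eq_of_mul_eq_one_right S.t_mul]
    exact Subgroup.mem_centralizer_singleton_iff.mpr (mul_inv_eq_iff_eq_mul.mp h1)
  have hsq : ∀ a : G, IsConj S.t a → a * a = 1 ∧ a ≠ 1 := fun a ha => by
    obtain ⟨g, rfl⟩ := isConj_iff.mp ha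
    refine ⟨?_, fun h => S.t_ne (conj_eq_one_iff.mp h)⟩
    rw [show g * S.t * g⁻¹ * (g * S.t * g⁻¹) = g * (S.t * S.t) * g⁻¹ by group, S.t_mul]; group
  rw [show (Finset.univ.filter fun x : M => (x * x = 1 ∧ x ≠ 1) ∧
    ((x * S.e y) * (x * S.e y) = 1 ∧ x * S.e y ≠ 1)).card = Nat.card {x : M // (x * x = 1 ∧ x ≠ 1) ∧
      ((x * S.e y) * (x * S.e y) = 1 ∧ x * S.e y ≠ 1)} by
      rw [Nat.card_eq_fintype_card, Fintype.card_subtype]]
  refine Nat.card_congr
    { toFun := fun p => ⟨S.e ⟨p.1.1, hyt p.1.1 p.1.2 (hsq _ p.2.1).1 (hsq _ p.2.2.1).1 p.2.2.2⟩, ?_⟩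
      invFun := fun x => ⟨(((S.e.symm x.1 : S.H) : G), ((S.e.symm x.1 * y : S.H) : G)), ?_⟩
      left_inv := fun p => ?_
      right_inv := fun x => ?_ }
  · obtain ⟨⟨a, b⟩, ha, hb, hab⟩ := p
    obtain ⟨g1, g2⟩ := hsq _ ha
    obtain ⟨g3, g4⟩ := hsq _ hb
    have hb' : a * (y : G) = b := by rw [← hab, ← mul_assoc, g1, one_mul]
    refine ⟨⟨?_, fun h => g2 ?_⟩, ?_, fun h => g4 ?_⟩
    · rw [← map_mul, ← _root_.map_one S.e]; exact congrArg S.e (Subtype.ext g1)
    · exact congrArg Subtype.val (S.e.injective (h.trans (_root_.map_one S.e).symm))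
    · rw [← map_mul, ← map_mul, ← _root_.map_one S.e]
      exact congrArg S.e (Subtype.ext (by show a * (y : G) * (a * (y : G)) = 1; rw [hb', g3]))
    · rw [← hb']
      rw [← map_mul] at h
      exact congrArg Subtype.val (S.e.injective (h.trans (_root_.map_one S.e).symm))
  · obtain ⟨x, ⟨x1, x2⟩, x3, x4⟩ := x
    have key : ∀ h : S.H, S.e h * S.e h = 1 → S.e h ≠ 1 → IsConj S.t (h : G) := fun h h1 h2 => by
      refine S.fusion ?_ fun e => h2 ?_
      · rw [← map_mul, ← _root_.map_one S.e] at h1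
        exact congrArg Subtype.val (S.e.injective h1)
      · rw [show h = 1 from Subtype.ext e, _root_.map_one]
    refine ⟨key (S.e.symm x) (by simpa using x1) (by simpa using x2),
      key (S.e.symm x * y) (by simpa using x3) (by simpa using x4), ?_⟩
    show ((S.e.symm x : S.H) : G) * ((S.e.symm x * y : S.H) : G) = y
    rw [← Subgroup.coe_mul, ← mul_assoc,
      show S.e.symm x * S.e.symm x = 1 by rw [← map_mul, x1, _root_.map_one], one_mul]
  · obtain ⟨⟨a, b⟩, ha, hb, hab⟩ := p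
    apply Subtype.ext
    simp only [MulEquiv.symm_apply_apply, Subgroup.coe_mul, Prod.mk.injEq, true_and]
    rw [← hab, ← mul_assoc, (hsq _ ha).1, one_mul]
  · apply Subtype.ext
    simp

/-- The order of the group. -/
theorem Setting.card_eq {G : Type*} [Group G] [Fintype G] (S : Setting G) [IsSimpleGroup G] :
    Nat.card G = 2376 := by
  classical
  set ω : ℂ := Complex.exp (2 * Real.pi * Complex.I / (3 : ℕ)) with hωdef
  have hp : IsPrimitiveRoot ω 3 := Complex.isPrimitiveRoot_exp 3 (by norm_num)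
  have h3 : ω ^ 3 = 1 := hp.pow_eq_one
  have hsum : 1 + ω + ω ^ 2 = 0 := by
    have := hp.geom_sum_eq_zero (by norm_num)
    simp only [Finset.sum_range_succ, Finset.sum_range_zero, zero_add, pow_zero, pow_one] at this
    exact this
  have h32 : (ω ^ 2) ^ 3 = 1 := by rw [← pow_mul, mul_comm, pow_mul, h3, one_pow]
  have hcj : conj ω = ω ^ 2 := by
    have h1 : conj ω * ω = 1 := by
      rw [mul_comm, Complex.mul_conj, Complex.normSq_eq_norm_sq,
        Complex.norm_eq_one_of_pow_eq_one h3 (by norm_num)]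
      simp
    calc conj ω = conj ω * ω ^ 3 := by rw [h3, mul_one]
      _ = conj ω * ω * ω ^ 2 := by ring
      _ = _ := by rw [h1, one_mul]
  have v0 : ∀ ζ, Tz ζ 1 = 0 := fun ζ => rfl
  obtain ⟨ma, hma⟩ := H57.gen_exists_coef (S.gen_ind (gen_Tz (one_pow 3)))
  obtain ⟨mb, hmb⟩ := H57.gen_exists_coef (S.gen_ind (gen_Tz h3))
  obtain ⟨mc, hmc⟩ := H57.gen_exists_coef (S.gen_ind (gen_Tz h32))
  have hdot : ∀ {ζ η : ℂ} {c d : Cfsg.IrrCharacter G → ℤ},
      Cfsg.indFun S.H (S.onH (Tz ζ)) = ∑ χ : Cfsg.IrrCharacter G, c χ • (χ : G → ℂ) →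
      Cfsg.indFun S.H (S.onH (Tz η)) = ∑ χ : Cfsg.IrrCharacter G, d χ • (χ : G → ℂ) →
      ∀ k : ℤ, (24 : ℂ)⁻¹ * (Tz ζ 0 * conj (Tz η 0) + 3 * (Tz ζ 1 * conj (Tz η 1)) +
        4 * (Tz ζ 2 * conj (Tz η 2)) + 4 * (Tz ζ 3 * conj (Tz η 3))) = (k : ℂ) →
      ∑ χ, c χ * d χ = k := by
    intro ζ η c d hc hd k hk
    have hcl : Cfsg.IsClassFunction S.H (S.onH (Tz η)) := fun g x => by
      simp only [Setting.onH, map_mul, map_inv]
      exact isClassFunction_ofTable _ (S.e g) (S.e x)
    rw [← classInner_ofTable, ← S.classInner_onH, ← H38.classInner_indFun_ti S.H S.special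
      S.special_ti _ _ hcl (S.onH_supported (v0 ζ)) (S.onH_supported (v0 η)), hc, hd,
      H26.classInner_sum_right] at hk
    simp only [H57.classInner_zsmul_right, H57.inner_coef, ← Int.cast_mul, ← Int.cast_sum] at hk
    have hk' : ∑ χ, d χ * c χ = k := by exact_mod_cast hk
    rw [← hk']
    exact Finset.sum_congr rfl fun χ _ => mul_comm _ _
  set o := H26.oneIrr G with ho
  have hco : ∀ {T : Fin 4 → ℂ} {c : Cfsg.IrrCharacter G → ℤ},
      Cfsg.indFun S.H (S.onH T) = ∑ χ : Cfsg.IrrCharacter G, c χ • (χ : G → ℂ) →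
      ∀ k : ℤ, (24 : ℂ)⁻¹ * (T 0 + 3 * T 1 + 4 * T 2 + 4 * T 3) = (k : ℂ) → c o = k := by
    intro T c hc k hk
    have h := H57.inner_coef c o
    rw [← hc, show (o : G → ℂ) = fun _ => 1 from rfl,
      H25.classInner_indFun_left S.H _ (fun _ => (1 : ℂ)) (fun _ _ => rfl), Cfsg.classInner,
      Nat.card_congr S.e.toEquiv] at h
    have e : ∑ y : S.H, S.onH T y * conj (1 : ℂ) = ∑ m : M, ofTable T m * conj (1 : ℂ) :=
      Equiv.sum_comp S.e.toEquiv fun g => ofTable T g * conj (1 : ℂ)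
    rw [e, ← Cfsg.classInner, classInner_ofTable_one, hk] at h
    exact_mod_cast h.symm
  have daa := hdot hma hma 4 (by simp [Tz, map_ofNat]; norm_num)
  have dbb := hdot hmb hmb 4 (by
    simp [Tz, map_ofNat, hcj]
    linear_combination ((16 : ℂ) / 24 * (ω ^ 3 + 2)) * h3)
  have dab := hdot hma hmb 2 (by
    simp [Tz, map_ofNat, hcj]
    linear_combination ((16 : ℂ) / 24 * ω) * h3 + (16 : ℂ) / 24 * hsum)
  have dbc := hdot hmb hmc 2 (by
    simp [Tz, map_ofNat, hcj]
    linear_combination ((16 : ℂ) / 24 * (ω ^ 2 + ω * (ω ^ 6 + ω ^ 3 + 1))) * h3 +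
      (16 : ℂ) / 24 * hsum)
  have oa := hco hma 1 (by simp [Tz]; norm_num)
  have ob := hco hmb 0 (by simp [Tz]; linear_combination 8 * hsum)
  choose d hd0 hd using fun χ : Cfsg.IrrCharacter G => H57.irr_degree χ.2
  set v : Cfsg.IrrCharacter G → ℤ := fun χ => ma χ + mb χ + mc χ with hv
  have hcoef : ∀ {T : Fin 4 → ℂ} {c : Cfsg.IrrCharacter G → ℤ},
      Cfsg.indFun S.H (S.onH T) = ∑ χ : Cfsg.IrrCharacter G, c χ • (χ : G → ℂ) →
      ∀ χ : Cfsg.IrrCharacter G,
        (c χ : ℂ) = (24 : ℂ)⁻¹ * ∑ y : S.H, S.onH T y * conj (χ.1 y) := by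
    intro T c hc χ
    rw [← H57.inner_coef c χ, ← hc,
      H25.classInner_indFun_left S.H _ _ (H26.irr_isClassFunction χ), Cfsg.classInner, S.card_H]
    norm_num
  set t' : S.H := ⟨S.t, Subgroup.mem_centralizer_singleton_iff.mpr rfl⟩ with ht'
  have hval : ∀ χ : Cfsg.IrrCharacter G, χ.1 S.t = (v χ : ℂ) := by
    intro χ
    have hf : ∀ y : S.H, S.onH (Tz 1) y + S.onH (Tz ω) y + S.onH (Tz (ω ^ 2)) y =
        if y = t' then 24 else 0 := by
      intro y
      have key : ∀ c : Fin 4, Tz 1 c + Tz ω c + Tz (ω ^ 2) c = if c = 0 then 24 else 0 := by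
        intro c
        fin_cases c <;> simp [Tz]
        · norm_num
        · linear_combination 2 * hsum
        · linear_combination 2 * hsum + 2 * ω * h3
      have hiff : y = t' ↔ ((S.e y).1 ≠ 1 ∧ cls (S.e y).2 = 0) := by
        rw [← S.e.injective.eq_iff, S.map_t, cls_eq_zero]
        constructor
        · intro h; rw [h]; exact ⟨ofAdd_ne, rfl⟩
        · rintro ⟨h, h'⟩
          have two : ∀ a : Multiplicative (ZMod 2), a ≠ 1 → a = Multiplicative.ofAdd 1 := by decide
          exact Prod.ext (two _ h) h'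
      by_cases h1 : (S.e y).1 = 1
      · rw [if_neg fun h => (hiff.mp h).1 h1]
        simp [Setting.onH, ofTable, h1]
      · simp only [Setting.onH, ofTable, if_neg h1, key]
        by_cases h2 : cls (S.e y).2 = 0
        · rw [if_pos h2, if_pos (hiff.mpr ⟨h1, h2⟩)]
        · rw [if_neg h2, if_neg fun h => h2 (hiff.mp h).2]
    have h : (v χ : ℂ) = (24 : ℂ)⁻¹ * ∑ y : S.H, (S.onH (Tz 1) y + S.onH (Tz ω) y +
        S.onH (Tz (ω ^ 2)) y) * conj (χ.1 y) := by
      rw [hv]
      push_cast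
      rw [hcoef hma, hcoef hmb, hcoef hmc]
      simp only [add_mul, Finset.sum_add_distrib]
      ring
    simp only [hf, ite_mul, zero_mul, Finset.sum_ite_eq', Finset.mem_univ, if_true] at h
    rw [← mul_assoc, inv_mul_cancel₀ (by norm_num), one_mul] at h
    have h' := congrArg conj h
    rw [map_intCast, Complex.conj_conj] at h'
    exact h'.symm
  -- complex conjugation
  set k : ℕ := Nat.card G - 1 with hk'
  have hpos : 0 < Nat.card G := Nat.card_pos
  have hk : k.Coprime (Nat.card G) := by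
    have : (k + 1).Coprime k := (Nat.coprime_self_add_left).mpr (Nat.coprime_one_left k)
    rw [show k + 1 = Nat.card G by omega] at this
    exact this.symm
  have hinv : ∀ g : G, g ^ k = g⁻¹ := fun g => by
    refine eq_inv_of_mul_eq_one_left ?_
    rw [← pow_succ, show k + 1 = Nat.card G by omega, pow_card_eq_one']
  set σ : Cfsg.IrrCharacter G → Cfsg.IrrCharacter G := H45.galIrr hk with hσ
  have σσ : ∀ χ, σ (σ χ) = χ := fun χ => Subtype.ext (funext fun g => by
    show χ.1 ((g ^ k) ^ k) = χ.1 g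
    rw [hinv, hinv, inv_inv])
  have hbij : Function.Bijective fun y : S.H => y ^ k :=
    H45.powCoprime_bijective (hk.coprime_dvd_right (Subgroup.card_subgroup_dvd_card S.H))
  have htwist : ∀ (ζ η : ℂ), ζ ^ 2 = η → η ^ 2 = ζ →
      ∀ {c : Cfsg.IrrCharacter G → ℤ},
      Cfsg.indFun S.H (S.onH (Tz ζ)) = ∑ χ : Cfsg.IrrCharacter G, c χ • (χ : G → ℂ) →
      ∀ χ, (c (σ χ) : ℂ) = (24 : ℂ)⁻¹ * ∑ y : S.H, S.onH (Tz η) y * conj (χ.1 y) := by
    intro ζ η h1 h2 c hc χ
    rw [hcoef hc]
    congr 1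
    refine Fintype.sum_bijective _ hbij _ _ fun y => ?_
    have e1 : y ^ k = y⁻¹ := Subtype.ext (by simpa using hinv (y : G))
    have e2 : S.onH (Tz η) (y ^ k) = S.onH (Tz ζ) y := by
      unfold Setting.onH ofTable
      rw [e1, map_inv, Prod.fst_inv, Prod.snd_inv, fst_inv, cls_inv]
      congr 1
      generalize cls (S.e y).2 = c
      fin_cases c <;> simp [Tz, h1, h2]
    rw [e2]
    rfl
  have sa : ∀ χ, ma (σ χ) = ma χ := fun χ => by
    have h := htwist 1 1 (one_pow 2) (one_pow 2) hma χ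
    rw [← hcoef hma] at h
    exact_mod_cast h
  have sb : ∀ χ, mb (σ χ) = mc χ := fun χ => by
    have h := htwist ω (ω ^ 2) rfl (by rw [← pow_mul]; linear_combination ω * h3) hmb χ
    rw [← hcoef hmc] at h
    exact_mod_cast h
  have sd : ∀ χ, (d (σ χ) : ℤ) = d χ := fun χ => by
    have h := hd (σ χ)
    rw [hσ, show (H45.galIrr hk χ).1 1 = χ.1 (1 ^ k) from rfl, one_pow, hd χ] at h
    exact_mod_cast h.symm
  have hdegs : ∀ {T : Fin 4 → ℂ} {c : Cfsg.IrrCharacter G → ℤ},
      Cfsg.indFun S.H (S.onH T) = ∑ χ : Cfsg.IrrCharacter G, c χ • (χ : G → ℂ) →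
      ∑ χ, c χ * (d χ : ℤ) = 0 := by
    intro T c hc
    have h := congrFun hc 1
    rw [H25.indFun_one, show S.onH T 1 = 0 by simp [Setting.onH, ofTable], mul_zero,
      Finset.sum_apply] at h
    simp only [Pi.smul_apply, zsmul_eq_mul, hd] at h
    exact_mod_cast h.symm
  -- counting
  let n : G → ℕ := fun g => Nat.card {p : G × G // IsConj S.t p.1 ∧ IsConj S.t p.2 ∧ p.1 * p.2 = g}
  have hct : Nat.card (Subgroup.centralizer ({S.t} : Set G)) = 24 := S.card_H
  have hcount : ∀ {ζ : ℂ} {c : Cfsg.IrrCharacter G → ℤ},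
      Cfsg.indFun S.H (S.onH (Tz ζ)) = ∑ χ : Cfsg.IrrCharacter G, c χ • (χ : G → ℂ) →
      (Nat.card G : ℚ) * ∑ χ, (c χ : ℚ) * ((v χ : ℤ) : ℚ) ^ 2 / ((d χ : ℤ) : ℚ) = 1152 := by
    intro ζ c hc
    have hG : (Nat.card G : ℂ) ≠ 0 := Nat.cast_ne_zero.2 Nat.card_pos.ne'
    have hcf : ∀ g : G, (n g : ℂ) * (24 * 24) =
        (Nat.card G : ℂ) * ∑ χ : Cfsg.IrrCharacter G,
          (v χ : ℂ) * (v χ : ℂ) * conj (χ.1 g) / χ.1 1 := by
      intro g
      have h := GLTwoThree.count_formula S.t S.t g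
      rw [hct] at h
      simp only [hval] at h
      push_cast at h
      exact h
    have hnf : Cfsg.IsClassFunction G fun g => (n g : ℂ) := by
      intro g x
      have h1 := hcf (x * g * x⁻¹)
      simp only [H26.irr_conj] at h1
      rw [← hcf g] at h1
      exact mul_right_cancel₀ (by norm_num) h1
    have hfr := H25.classInner_indFun_left S.H (S.onH (Tz ζ)) (fun g => (n g : ℂ)) hnf
    have hM : ∑ y : S.H, S.onH (Tz ζ) y * conj ((n y : ℕ) : ℂ) = 48 := by
      have h1 : ∑ y : S.H, S.onH (Tz ζ) y * conj ((n y : ℕ) : ℂ) =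
          ∑ m : M, ofTable (fun c => Tz ζ c * (pairTable c : ℂ)) m := by
        rw [← Equiv.sum_comp S.e.toEquiv fun m => ofTable (fun c => Tz ζ c * (pairTable c : ℂ)) m]
        refine Finset.sum_congr rfl fun y _ => ?_
        rw [map_natCast]
        show ofTable (Tz ζ) (S.e y) * _ = ofTable _ (S.e y)
        unfold ofTable
        split_ifs with h
        · rw [zero_mul]
        · by_cases h2 : cls (S.e y).2 = 1
          · simp [h2, Tz]
          · rw [show n y = _ from S.count_special y ((S.mem_special_iff y).mpr ⟨h, h2⟩)]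
      rw [h1, sum_ofTable]
      simp [pairTable, Tz]
      norm_num
    unfold Cfsg.classInner at hfr
    rw [hM, S.card_H] at hfr
    have hexp : ∑ g : G, Cfsg.indFun S.H (S.onH (Tz ζ)) g * conj ((n g : ℕ) : ℂ) * (24 * 24) =
        (Nat.card G : ℂ) * ((Nat.card G : ℂ) *
          ∑ χ, (c χ : ℂ) * ((v χ : ℂ) * (v χ : ℂ)) / χ.1 1) := by
      calc _ = ∑ g : G, Cfsg.indFun S.H (S.onH (Tz ζ)) g * ((Nat.card G : ℂ) *
            ∑ χ : Cfsg.IrrCharacter G, (v χ : ℂ) * (v χ : ℂ) * conj (χ.1 g) / χ.1 1) :=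
            Finset.sum_congr rfl fun g _ => by rw [map_natCast, mul_assoc, hcf]
        _ = (Nat.card G : ℂ) * ∑ χ : Cfsg.IrrCharacter G, (v χ : ℂ) * (v χ : ℂ) / χ.1 1 *
            ∑ g : G, Cfsg.indFun S.H (S.onH (Tz ζ)) g * conj (χ.1 g) := by
            simp only [Finset.mul_sum]
            rw [Finset.sum_comm]
            exact Finset.sum_congr rfl fun χ _ => Finset.sum_congr rfl fun g _ => by ring
        _ = _ := by
            congr 1
            rw [Finset.mul_sum]
            refine Finset.sum_congr rfl fun χ _ => ?_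
            have h := H57.inner_coef c χ
            rw [← hc, Cfsg.classInner] at h
            rw [← h]
            field_simp
    rw [← Finset.sum_mul] at hexp
    field_simp at hfr
    push_cast at hfr
    have h3 : (Nat.card G : ℂ) * ∑ χ, (c χ : ℂ) * ((v χ : ℂ) * (v χ : ℂ)) / χ.1 1 = 1152 := by
      apply mul_left_cancel₀ hG
      linear_combination 24 * hfr - hexp
    have h4 : (((Nat.card G : ℚ) * ∑ χ, (c χ : ℚ) * ((v χ : ℤ) : ℚ) ^ 2 / ((d χ : ℤ) : ℚ) : ℚ) : ℂ) =
        (((1152 : ℕ) : ℚ) : ℂ) := by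
      push_cast
      rw [← h3]
      simp only [hd, pow_two]
    exact_mod_cast Rat.cast_injective h4
  have hdo : d o = 1 := by
    have h := hd o
    rw [show o.1 1 = (1 : ℂ) from rfl] at h
    exact_mod_cast h.symm
  have hmod : ∀ χ, ((d χ : ℤ) - v χ) % 8 = 0 := by
    intro χ
    let j : twoPart →* G := (Subgroup.subtype _).comp (S.e.symm.toMonoidHom.comp twoPart.subtype)
    have jinj : Function.Injective j :=
      Subtype.val_injective.comp (S.e.symm.injective.comp Subtype.val_injective)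
    obtain ⟨z, hz⟩ := H57.gen_inner_int
      (H57.gen_of_char (H26.isCharacter_comp (H26.irr_isCharacter χ) j))
      (H57.gen_of_irr (H26.oneIrr twoPart).2)
    rw [Cfsg.classInner, card_twoPart] at hz
    simp only [H26.oneIrr_val, map_one, mul_one, Function.comp_apply] at hz
    rw [← Finset.add_sum_erase _ _ (Finset.mem_univ (1 : twoPart)),
      Finset.sum_congr rfl (g := fun _ => (v χ : ℂ)) (fun x hx => by
        have h1 : j x * j x = 1 := by
          rw [← map_mul, show x * x = 1 from Subtype.ext x.2, map_one]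
        rw [← H26.irr_eq_of_isConj χ (S.fusion h1 fun h => (Finset.mem_erase.mp hx).1
          (jinj (h.trans (map_one j).symm))), hval]),
      Finset.sum_const, Finset.card_erase_of_mem (Finset.mem_univ _), Finset.card_univ,
      ← Nat.card_eq_fintype_card, card_twoPart, map_one, hd, nsmul_eq_mul] at hz
    have h8 : ((d χ : ℤ) : ℂ) + ((7 * v χ : ℤ) : ℂ) = ((8 * z : ℤ) : ℂ) := by
      push_cast
      norm_num at hz
      linear_combination 8 * hz
    have h8' : (d χ : ℤ) + 7 * v χ = 8 * z := by exact_mod_cast h8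
    omega
  have hlin : ∀ χ, χ ≠ o → (d χ : ℤ) ≠ 1 := by
    intro χ hχ h1
    obtain ⟨f, hf⟩ := H26.exists_hom_of_isCharacter_one (H26.irr_isCharacter χ)
      (by rw [hd, show d χ = 1 by exact_mod_cast h1, Nat.cast_one])
    rcases (inferInstance : f.ker.Normal).eq_bot_or_eq_top with hb | hb
    · have hinj : Function.Injective f := (MonoidHom.ker_eq_bot_iff f).mp hb
      apply noncomm
      have hab : S.e.symm (1, vA) * S.e.symm (1, rA) = S.e.symm (1, rA) * S.e.symm (1, vA) :=
        Subtype.ext (hinj (by rw [Subgroup.coe_mul, Subgroup.coe_mul, map_mul, map_mul, mul_comm]))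
      rw [← map_mul, ← map_mul] at hab
      exact S.e.symm.injective hab
    · refine hχ (Subtype.ext (funext fun g => ?_))
      rw [← hf g, show f g = 1 from (MonoidHom.mem_ker).mp (hb ▸ Subgroup.mem_top g)]
      rfl
  have H : Coeffs o σ ma mb mc fun χ => (d χ : ℤ) :=
    { inv := σσ, sa := sa, sb := sb, sd := sd
      dpos := fun χ => by exact_mod_cast hd0 χ
      done := by exact_mod_cast hdo
      lin := hlin, ao := oa, bo := ob
      aa := daa, bb := dbb, ab := dab, bc := dbc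
      da := hdegs hma, db := hdegs hmb
      mod8 := hmod }
  exact H.order (hcount hma) (hcount hmb)

end Cfsg.Agent.H80.CentTwoAlt
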