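import Cfsg.Agent.H80.CentTwoAlt.Core

/-!
# The minimal normal subgroup
-/

set_option autoImplicit false
set_option synthInstance.maxSize 4096

namespace Cfsg.Agent.H80.CentTwoAlt

open Subgroup
open scoped commutatorElement

variable {G : Type*} [Group G] [Finite G]

/-- A noncommuting companion for every element of odd order. -/
theorem odd_commutator_four : ∀ p : alternatingGroup (Fin 4), p ≠ 1 → p * p ≠ 1 →
    ∃ q, (q * p * q⁻¹ * (p * p)) * (q * p * q⁻¹ * (p * p)) = 1 ∧ q * p * q⁻¹ * (p * p) ≠ 1 := by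
  decide +kernel

theorem odd_commutator_five : ∀ p : alternatingGroup (Fin 5), p ≠ 1 → p * p ≠ 1 →
    ∃ q, (q * p * q⁻¹ * (p * p)) * (q * p * q⁻¹ * (p * p)) = 1 ∧ q * p * q⁻¹ * (p * p) ≠ 1 := by
  decide +kernel

namespace Data

variable {J : G} {T : Subgroup G} (D : Data J T)

include D

/-- An odd normal subgroup meets the centralizer trivially. -/
theorem odd_inf {m : ℕ} (hm : m = 4 ∨ m = 5) (e : T ≃* alternatingGroup (Fin m))
    {N : Subgroup G} (hN : N.Normal) (ho : Odd (Nat.card N)) :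
    N ⊓ centralizer ({J} : Set G) = ⊥ := by
  have noinv : ∀ w ∈ N, w * w = 1 → w = 1 := by
    intro w hw hww
    by_contra h1
    have hd : orderOf (⟨w, hw⟩ : N) = 2 := orderOf_eq_prime
      (Subtype.ext (by simpa [pow_two] using hww)) fun h => h1 (congrArg Subtype.val h)
    exact (Nat.not_even_iff_odd.mpr ho)
      (even_iff_two_dvd.mpr (hd ▸ _root_.orderOf_dvd_natCard (⟨w, hw⟩ : N)))
  refine (Subgroup.eq_bot_iff_forall _).mpr fun x hx => ?_
  obtain ⟨hxN, hxC⟩ := mem_inf.mp hx
  -- `x` lies in `T`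
  have hsq : x * x ∈ T := by
    obtain ⟨y, hy, rfl | rfl⟩ := D.decomp hxC
    · exact mul_mem hy hy
    · rw [mul_assoc, ← mul_assoc y, ← (D.comm hy).eq, mul_assoc, ← mul_assoc J, D.mul_self, one_mul]
      exact mul_mem hy hy
  have hxT : x ∈ T := by
    obtain ⟨k, hk⟩ := ho
    have h1 : x ^ (2 * k + 1) = 1 := by
      have h := congrArg Subtype.val (hk ▸ pow_card_eq_one' : (⟨x, hxN⟩ : N) ^ (2 * k + 1) = 1)
      simpa using h
    have h2 : x = ((x * x) ^ k)⁻¹ := by
      refine eq_inv_of_mul_eq_one_right ?_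
      rw [← pow_two, ← pow_mul, ← pow_succ, h1]
    rw [h2]
    exact inv_mem (pow_mem hsq k)
  by_contra hx1
  have hp1 : e ⟨x, hxT⟩ ≠ 1 := fun h => hx1 (by
    rw [← map_one e] at h
    exact congrArg Subtype.val (e.injective h))
  have hp2 : e ⟨x, hxT⟩ * e ⟨x, hxT⟩ ≠ 1 := fun h => hx1 (noinv x hxN (by
    rw [← map_mul, ← map_one e] at h
    exact congrArg Subtype.val (e.injective h)))
  obtain ⟨q, hq1, hq2⟩ : ∃ q, (q * e ⟨x, hxT⟩ * q⁻¹ * (e ⟨x, hxT⟩ * e ⟨x, hxT⟩)) *
      (q * e ⟨x, hxT⟩ * q⁻¹ * (e ⟨x, hxT⟩ * e ⟨x, hxT⟩)) = 1 ∧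
      q * e ⟨x, hxT⟩ * q⁻¹ * (e ⟨x, hxT⟩ * e ⟨x, hxT⟩) ≠ 1 := by
    generalize e ⟨x, hxT⟩ = p at hp1 hp2
    rcases hm with rfl | rfl
    · exact odd_commutator_four p hp1 hp2
    · exact odd_commutator_five p hp1 hp2
  obtain ⟨z, rfl⟩ := e.surjective q
  simp only [← map_inv, ← map_mul] at hq1 hq2
  rw [← map_one e] at hq1
  have h1 : (z : G) * x * (z : G)⁻¹ * (x * x) ∈ N :=
    mul_mem (hN.conj_mem _ hxN _) (mul_mem hxN hxN)
  have h2 : (z : G) * x * (z : G)⁻¹ * (x * x) * ((z : G) * x * (z : G)⁻¹ * (x * x)) = 1 :=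
    congrArg Subtype.val (e.injective hq1)
  refine hq2 ?_
  rw [← map_one e]
  exact congrArg e (Subtype.ext (noinv _ h1 h2))

end Data

/-- The minimal normal subgroup. -/
theorem exists_simple {J : G} {T : Subgroup G} (D : Data J T) {m : ℕ} (hm : m = 4 ∨ m = 5)
    (e : T ≃* alternatingGroup (Fin m)) (hns : ¬ Group.IsSolvable G)
    (hG : ∀ H : Subgroup G, H.index ≠ 2) (S : Sylow 2 G) (hJS : J ∈ (S : Subgroup G))
    (h8 : Nat.card (S : Subgroup G) = 8) (hS : ∀ x ∈ (S : Subgroup G), x * x = 1) :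
    ∃ L : Subgroup G, L.Normal ∧ (∀ x : G, x * x = 1 → x ∈ L) ∧ IsSimpleGroup L ∧
      ¬ IsMulCommutative L ∧ centralizer (L : Set G) = ⊥ := by
  classical
  have := Fact.mk Nat.prime_two
  -- every odd normal subgroup is trivial
  have odd : ∀ N : Subgroup G, N.Normal → Odd (Nat.card N) → N = ⊥ := by
    intro N hN ho
    haveI := hN
    have := comm_of_sq hS
    have hcop : (Nat.card (S : Subgroup G)).Coprime (Nat.card N) := by
      rw [h8, show (8 : ℕ) = 2 ^ 3 by norm_num]
      exact (Nat.coprime_two_left.mpr ho).pow_left 3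
    rw [← S0058.result (S : Subgroup G) N (not_cyclic h8 hS)
      (le_top.trans_eq (normalizer_eq_top_iff.mpr hN).symm) hcop]
    refine le_bot_iff.mp (iSup₂_le fun a ha => ?_)
    obtain ⟨g, hg⟩ := involutions_conj hG S h8 hS (hS a ha.1) ha.2 D.mul_self D.ne_one
    intro x hx
    obtain ⟨hxN, hxC⟩ := mem_inf.mp hx
    have h : g * x * g⁻¹ ∈ N ⊓ centralizer ({J} : Set G) := by
      refine mem_inf.mpr ⟨hN.conj_mem x hxN g, mem_centralizer_singleton_iff.mpr ?_⟩
      have h := ((show Commute x a from mem_centralizer_singleton_iff.mp hxC).map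
        (MulAut.conj g).toMonoidHom)
      simp only [MulEquiv.coe_toMonoidHom, MulAut.conj_apply, hg] at h
      exact h.eq
    rw [D.odd_inf hm e hN ho, mem_bot] at h
    exact mem_bot.mpr (conj_eq_one_iff.mp h)
  -- every nontrivial normal subgroup contains all involutions
  have big : ∀ N : Subgroup G, N.Normal → N ≠ ⊥ → ∀ x : G, x * x = 1 → x ∈ N := by
    intro N hN hne x hx
    by_cases hx1 : x = 1
    · exact hx1 ▸ one_mem N
    obtain ⟨w, hw⟩ := exists_prime_orderOf_dvd_card' (G := N) 2 (by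
      by_contra h
      exact hne (odd N hN (Nat.not_even_iff_odd.mp fun he => h (even_iff_two_dvd.mp he))))
    rw [← orderOf_coe] at hw
    obtain ⟨g, hg⟩ := involutions_conj hG S h8 hS (a := (w : G)) (b := x)
      (by rw [← pow_two, ← hw, pow_orderOf_eq_one])
      (fun h => by rw [h, orderOf_one] at hw; omega) hx hx1
    exact hg ▸ hN.conj_mem _ w.2 g
  set L := normalClosure ({J} : Set G) with hL
  have hJL : J ∈ L := subset_normalClosure rfl
  have hLne : L ≠ ⊥ := fun h => D.ne_one (mem_bot.mp (h ▸ hJL))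
  have hmem : ∀ x : G, x * x = 1 → x ∈ L := big L normalClosure_normal hLne
  have hSL : (S : Subgroup G) ≤ L := fun x hx => hmem x (hS x hx)
  -- `L` is not commutative
  have hna : ¬ IsMulCommutative L := by
    intro hab
    have hcomm : ∀ a ∈ L, ∀ b ∈ L, a * b = b * a := fun a ha b hb =>
      congrArg Subtype.val (hab.is_comm.comm ⟨a, ha⟩ ⟨b, hb⟩)
    -- its odd part is trivial
    let K : Subgroup G :=
      { carrier := {x | x ∈ L ∧ Odd (orderOf x)}
        one_mem' := ⟨one_mem L, by simp⟩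
        mul_mem' := fun {a b} ha hb => ⟨mul_mem ha.1 hb.1,
          (ha.2.mul hb.2).of_dvd_nat (Commute.orderOf_mul_dvd_mul_orderOf (hcomm a ha.1 b hb.1))⟩
        inv_mem' := fun {a} ha => ⟨inv_mem ha.1, by rw [orderOf_inv]; exact ha.2⟩ }
    have hK : K.Normal := ⟨fun x hx g => ⟨normalClosure_normal.conj_mem x hx.1 g, by
      rw [show g * x * g⁻¹ = MulAut.conj g x from rfl, MulEquiv.orderOf_eq]; exact hx.2⟩⟩
    have hKo : Odd (Nat.card K) := by
      rw [← Nat.not_even_iff_odd, even_iff_two_dvd]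
      intro h
      obtain ⟨w, hw⟩ := exists_prime_orderOf_dvd_card' (G := K) 2 h
      have := (w.2 : (w : G) ∈ L ∧ Odd (orderOf (w : G))).2
      rw [orderOf_coe, hw] at this
      exact absurd this (by decide)
    have hKb := odd K hK hKo
    have hLp : IsPGroup 2 L := by
      rintro ⟨x, hx⟩
      obtain ⟨a, q, hq, hxq⟩ := Nat.exists_eq_two_pow_mul_odd (orderOf_pos x).ne'
      refine ⟨a, Subtype.ext ?_⟩
      show x ^ 2 ^ a = 1
      have hmemK : x ^ 2 ^ a ∈ K := ⟨pow_mem hx _, by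
        refine hq.of_dvd_nat (orderOf_dvd_of_pow_eq_one ?_)
        rw [← pow_mul, ← hxq, pow_orderOf_eq_one]⟩
      rw [hKb] at hmemK
      exact mem_bot.mp hmemK
    have hLS : L = (S : Subgroup G) := S.3 hLp hSL
    haveI hSn : (S : Subgroup G).Normal := hLS ▸ normalClosure_normal
    apply hns
    have : Group.IsSolvable (G ⧸ (S : Subgroup G)) := S0205.result (by
      rw [← index_eq_card]
      exact Nat.not_even_iff_odd.mp fun h => S.not_dvd_index (even_iff_two_dvd.mp h))
    have hsS : Group.IsSolvable (S : Subgroup G) := by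
      have := comm_of_sq hS
      exact Group.isSolvable_of_comm fun a b => this.is_comm.comm a b
    exact Group.isSolvable_of_ker_le_range ((S : Subgroup G).subtype) (QuotientGroup.mk' (S : Subgroup G))
      (by rw [QuotientGroup.ker_mk', range_subtype])
  -- `L` is simple
  have hsimple : IsSimpleGroup L := by
    have : Nontrivial L := (nontrivial_iff_ne_bot L).mpr hLne
    refine ⟨fun K hK => or_iff_not_imp_left.mpr fun hne => ?_⟩
    -- `K` contains an involution
    obtain ⟨w, hw⟩ : ∃ w : K, orderOf w = 2 := by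
      refine exists_prime_orderOf_dvd_card' 2 ?_
      by_contra h
      have hle := H19.le_pPrimeCore (p := 2) hK (Nat.coprime_two_right.mpr
        (Nat.not_even_iff_odd.mp fun he => h (even_iff_two_dvd.mp he)))
      have := H19.pPrimeCore_characteristic 2 L
      haveI : ((Cfsg.pPrimeCore 2 L).map L.subtype).Normal := ConjAct.normal_of_characteristic_of_normal
      have hb := odd ((Cfsg.pPrimeCore 2 L).map L.subtype) inferInstance (by
        rw [Nat.card_congr (equivMapOfInjective _ L.subtype L.subtype_injective).toEquiv.symm]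
        exact Nat.coprime_two_right.mp (H19.pPrimeCore_coprime 2))
      rw [map_eq_bot_iff_of_injective _ L.subtype_injective] at hb
      exact hne (le_bot_iff.mp (hb ▸ hle))
    have hw2 : ((w : L) : G) * (w : L) = 1 ∧ ((w : L) : G) ≠ 1 := by
      rw [← orderOf_coe, ← orderOf_coe] at hw
      exact ⟨by rw [← pow_two, ← hw, pow_orderOf_eq_one], fun h => by rw [h, orderOf_one] at hw; omega⟩
    -- involutions are conjugate inside `L`
    have hcardS : Nat.card ((S.subtype hSL : Sylow 2 L) : Subgroup L) = 8 := by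
      rw [Sylow.coe_subtype, Nat.card_congr (subgroupOfEquivOfLe hSL).toEquiv, h8]
    have hexpS : ∀ x ∈ ((S.subtype hSL : Sylow 2 L) : Subgroup L), x * x = 1 := fun x hx => by
      rw [Sylow.coe_subtype, mem_subgroupOf] at hx
      exact Subtype.ext (hS _ hx)
    have h2 : ∀ H : Subgroup L, H.index ≠ 2 := by
      intro H hH
      have hcn : (⁅L, L⁆ : Subgroup G) ≠ ⊥ := fun h => hna ⟨⟨fun a b => Subtype.ext
        (commutatorElement_eq_one_iff_mul_comm.mp (mem_bot.mp
          (h ▸ commutator_mem_commutator a.2 b.2)))⟩⟩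
      haveI : L.Normal := normalClosure_normal
      have hle : L ≤ (⁅L, L⁆ : Subgroup G) := normalClosure_le_normal
        (Set.singleton_subset_iff.mpr (big _ inferInstance hcn J D.mul_self))
      have hle2 : (⁅L, L⁆ : Subgroup G) ≤ H.map L.subtype := commutator_le.mpr fun a ha b hb => by
        refine ⟨⁅(⟨a, ha⟩ : L), ⟨b, hb⟩⁆, ?_, rfl⟩
        show ((⟨a, ha⟩ : L) * ⟨b, hb⟩ * (⟨a, ha⟩ : L)⁻¹ * (⟨b, hb⟩ : L)⁻¹) ∈ H
        simp only [mul_mem_iff_of_index_two hH, inv_mem_iff]
        tauto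
      have htop : H = ⊤ := eq_top_iff.mpr fun x _ => by
        obtain ⟨y, hy, hxy⟩ := hle2 (hle x.2)
        exact (Subtype.ext hxy : y = x) ▸ hy
      rw [htop, index_top] at hH
      omega
    have hall : ∀ x : G, x * x = 1 → x ≠ 1 → ∀ hx : x ∈ L, (⟨x, hx⟩ : L) ∈ K := by
      intro x hx hx1 hxL
      obtain ⟨g, hg⟩ := involutions_conj h2 (S.subtype hSL) hcardS hexpS (a := (w : L))
        (b := ⟨x, hxL⟩) (Subtype.ext hw2.1) (fun h => hw2.2 (congrArg Subtype.val h))
        (Subtype.ext hx) (fun h => hx1 (congrArg Subtype.val h))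
      exact hg ▸ hK.conj_mem _ w.2 g
    have hle : L ≤ K.map L.subtype := by
      refine (closure_le _).mpr ?_
      intro x hx
      obtain ⟨y, hyJ, hy⟩ := Group.mem_conjugatesOfSet_iff.mp hx
      rw [Set.mem_singleton_iff.mp hyJ] at hy
      obtain ⟨c, rfl⟩ := isConj_iff.mp hy
      have hc : c * J * c⁻¹ * (c * J * c⁻¹) = 1 := by
        rw [show c * J * c⁻¹ * (c * J * c⁻¹) = c * (J * J) * c⁻¹ by group, D.mul_self]; group
      exact ⟨⟨_, hmem _ hc⟩, hall _ hc (fun h => D.ne_one (conj_eq_one_iff.mp h)) _, rfl⟩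
    refine eq_top_iff.mpr fun x _ => ?_
    obtain ⟨y, hy, hxy⟩ := hle x.2
    exact (Subtype.ext hxy : y = x) ▸ hy
  refine ⟨L, normalClosure_normal, hmem, hsimple, hna, ?_⟩
  by_contra hC
  haveI : (centralizer (L : Set G)).Normal := normal_centralizer
  apply hna
  have hle : L ≤ centralizer (L : Set G) := normalClosure_le_normal
    (Set.singleton_subset_iff.mpr (big _ inferInstance hC J D.mul_self))
  exact ⟨⟨fun a b => Subtype.ext (mem_centralizer_iff.mp (hle b.2) a a.2)⟩⟩

end Cfsg.Agent.H80.CentTwoAlt
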