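import Cfsg.Prelude.Def_Spor_J1
import Cfsg.Prelude.Def_KGroupFacts
import Cfsg.Agent.H80.CentTwoAlt.Simple
import Cfsg.Agent.H80.CentTwoAlt.Order
import Cfsg.Agent.H31.FewSylow.Perfect
import Cfsg.Agent.S1644
import Cfsg.Agent.S1230
import Cfsg.Agent.S2602

/-!
# Groups with an involution centralizer `2 × Aₘ`
-/

set_option autoImplicit false
set_option synthInstance.maxSize 4096

namespace Cfsg.Agent.H80.CentTwoAlt

open Subgroup

universe u

/-- The automorphism group of `PSL(2, 8)` has order at most 1512. -/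
theorem card_aut_psl {F : Type} [Field F] [Fintype F] (hF : Fintype.card F = 8) :
    Nat.card (MulAut (Matrix.ProjectiveSpecialLinearGroup (Fin 2) F)) ≤ 1512 ∧
      Nat.card (Matrix.ProjectiveSpecialLinearGroup (Fin 2) F) = 504 := by
  classical
  haveI := Fact.mk Nat.prime_two
  obtain ⟨c, -, hc, hcard⟩ := H31.FewSylow.psl_bound hF
  have hc1 : c = 1 := by rw [← hc]; decide
  subst hc1
  rw [one_mul] at hcard
  obtain ⟨φ, hs, -, hk⟩ := S2602.result (F := F) (p := 2) (f := 3) (by norm_num)
    (by rw [hF]; norm_num) (by norm_num)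
  refine ⟨?_, by rw [hcard]; norm_num⟩
  have h1 : Nat.card (Cfsg.Out (Matrix.ProjectiveSpecialLinearGroup (Fin 2) F)) = 3 := by
    rw [← φ.ker.card_mul_index, hk, index_ker, MonoidHom.range_eq_top.mpr hs, card_top,
      Nat.card_eq_fintype_card]
    decide
  rw [card_eq_card_quotient_mul_card_subgroup (Cfsg.Inn (Matrix.ProjectiveSpecialLinearGroup (Fin 2) F))]
  rw [show Nat.card (MulAut (Matrix.ProjectiveSpecialLinearGroup (Fin 2) F) ⧸
    Cfsg.Inn (Matrix.ProjectiveSpecialLinearGroup (Fin 2) F)) = 3 from h1]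
  have h2 : Nat.card (Cfsg.Inn (Matrix.ProjectiveSpecialLinearGroup (Fin 2) F)) ≤ 504 := by
    refine le_of_le_of_eq (Nat.card_le_card_of_surjective _
      (MonoidHom.rangeRestrict_surjective MulAut.conj)) ?_
    rw [hcard]; norm_num
  omega

theorem main {G : Type u} [Group G] [Finite G] (hns : ¬ Group.IsSolvable G)
    (h2 : ∀ N : Subgroup G, N.Normal → N.index ≠ 2)
    (J : G) (hJ : Cfsg.IsTwoCentralInvolution J) (m : ℕ) (T : Subgroup G)
    (hT : Nonempty (↥T ≃* ↥(alternatingGroup (Fin m))))
    (hd : Cfsg.IsInternalDirectProduct (Subgroup.zpowers J) T (Subgroup.centralizer ({J} : Set G))) :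
    (m = 4 ∧ ∃ (F : Type) (_ : Field F) (_ : Fintype F), Fintype.card F = 8 ∧
        Nonempty (G ≃* MulAut (Matrix.ProjectiveSpecialLinearGroup (Fin 2) F))) ∨
      (m = 5 ∧ Cfsg.Spor.IsoJ1 G) := by
  classical
  obtain ⟨e⟩ := hT
  have D : Data J T := ⟨hJ.1, hd⟩
  obtain ⟨S, r, hm, hJS, hSC, h8, hS, hrT, hrr, hr1⟩ := D.shape hJ h2 e
  have hG : ∀ H : Subgroup G, H.index ≠ 2 := fun H h => h2 H (normal_of_index_eq_two h) h
  obtain ⟨L, hLn, hinv, hsimple, hna, hcent⟩ := exists_simple D hm e hns hG S hJS h8 hS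
  have hSL : (S : Subgroup G) ≤ L := fun x hx => hinv x (hS x hx)
  have hJL : J ∈ L := hinv J D.mul_self
  have hL2 : ∀ H : Subgroup L, H.index ≠ 2 := by
    intro H hH
    rcases (normal_of_index_eq_two hH).eq_bot_or_eq_top with rfl | rfl
    · rw [index_bot] at hH
      haveI := Fact.mk Nat.prime_two
      have := isCyclic_of_prime_card (p := 2) hH
      exact hna IsCyclic.commutative
    · rw [index_top] at hH; omega
  have hcardS : Nat.card ((S.subtype hSL : Sylow 2 L) : Subgroup L) = 8 := by
    rw [Sylow.coe_subtype, Nat.card_congr (subgroupOfEquivOfLe hSL).toEquiv, h8]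
  have hexpS : ∀ x ∈ ((S.subtype hSL : Sylow 2 L) : Subgroup L), x * x = 1 := fun x hx => by
    rw [Sylow.coe_subtype, mem_subgroupOf] at hx
    exact Subtype.ext (hS _ hx)
  -- `G = L · C(J)`
  have hfrat : ∀ x : G, ∃ l ∈ L, l * x ∈ centralizer ({J} : Set G) := by
    intro x
    have hx : x * J * x⁻¹ * (x * J * x⁻¹) = 1 := by
      rw [show x * J * x⁻¹ * (x * J * x⁻¹) = x * (J * J) * x⁻¹ by group, D.mul_self]; group
    obtain ⟨l, hl⟩ := involutions_conj hL2 (S.subtype hSL) hcardS hexpS
      (a := (⟨x * J * x⁻¹, hinv _ hx⟩ : L)) (b := ⟨J, hJL⟩) (Subtype.ext hx)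
      (fun h => D.ne_one (conj_eq_one_iff.mp (congrArg Subtype.val h))) (Subtype.ext D.mul_self)
      (fun h => D.ne_one (congrArg Subtype.val h))
    refine ⟨(l : G), l.2, mem_centralizer_singleton_iff.mpr ?_⟩
    have h' : (l : G) * (x * J * x⁻¹) * (l : G)⁻¹ = J := congrArg Subtype.val hl
    calc (l : G) * x * J = (l : G) * (x * J * x⁻¹) * (l : G)⁻¹ * ((l : G) * x) := by group
      _ = J * ((l : G) * x) := by rw [h']
  have htop : centralizer ({J} : Set G) ≤ L → L = ⊤ := fun hle => eq_top_iff.mpr fun x _ => by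
    obtain ⟨l, hl, hlx⟩ := hfrat x
    exact (L.mul_mem_cancel_left hl).mp (hle hlx)
  have simpleG : L = ⊤ → IsSimpleGroup G := fun h => by
    subst h
    haveI : Nontrivial G := ⟨⟨J, 1, D.ne_one⟩⟩
    exact IsSimpleGroup.isSimpleGroup_of_surjective (topEquiv (G := G)).toMonoidHom
      (topEquiv (G := G)).surjective
  haveI := comm_of_sq hS
  rcases hm with rfl | rfl
  · refine Or.inl ⟨rfl, ?_⟩
    obtain ⟨f, hf⟩ := D.exists_equiv e
    by_cases hle : centralizer ({J} : Set G) ≤ L
    · exfalso
      haveI := simpleG (htop hle)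
      let _ : Fintype G := Fintype.ofFinite G
      let St : Setting G :=
        { t := J, e := f, map_t := hf
          fusion := fun {x} h1 h2 => isConj_iff.mpr
            (involutions_conj hG S h8 hS D.mul_self D.ne_one h1 h2) }
      have h := seven_dvd hG S h8 hS
      rw [St.card_eq] at h
      norm_num at h
    have hC : Nat.card (centralizer ({J} : Set G)) = 24 := by
      rw [Nat.card_congr f.toEquiv, Nat.card_eq_fintype_card]
      exact card_M
    have hLC : L ⊓ centralizer ({J} : Set G) = (S : Subgroup G) := by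
      have h1 : (S : Subgroup G) ≤ L ⊓ centralizer ({J} : Set G) := le_inf hSL hSC
      have d1 := card_dvd_of_le h1
      have d2 := card_dvd_of_le (inf_le_right : L ⊓ centralizer ({J} : Set G) ≤ _)
      rw [h8] at d1
      rw [hC] at d2
      obtain ⟨j, hj⟩ := d1
      rw [hj] at d2
      have hj3 : j ∣ 3 := (Nat.mul_dvd_mul_iff_left (by norm_num : 0 < 8)).mp d2
      rcases (Nat.dvd_prime Nat.prime_three).mp hj3 with rfl | rfl
      · exact (eq_of_le_of_card_ge h1 (by rw [hj, h8])).symm
      · exfalso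
        apply hle
        have := eq_of_le_of_card_ge (inf_le_right : L ⊓ centralizer ({J} : Set G) ≤ _)
          (by rw [hC, hj])
        exact this ▸ inf_le_left
    -- centralizers in `L` are elementary
    have hsq : ∀ t c : L, t * t = 1 → t ≠ 1 → c * t = t * c → c * c = 1 := by
      intro t c ht ht1 hct
      obtain ⟨g, hg⟩ := involutions_conj hG S h8 hS (a := (t : G)) (b := J) (congrArg Subtype.val ht)
        (fun h => ht1 (Subtype.ext h)) D.mul_self D.ne_one
      have hmem : g * (c : G) * g⁻¹ ∈ L ⊓ centralizer ({J} : Set G) := by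
        refine mem_inf.mpr ⟨hLn.conj_mem _ c.2 g, mem_centralizer_singleton_iff.mpr ?_⟩
        have h := (show Commute (c : G) t from congrArg Subtype.val hct).map (MulAut.conj g).toMonoidHom
        simp only [MulEquiv.coe_toMonoidHom, MulAut.conj_apply, hg] at h
        exact h.eq
      rw [hLC] at hmem
      have h := hS _ hmem
      rw [show g * (c : G) * g⁻¹ * (g * (c : G) * g⁻¹) = g * ((c : G) * c) * g⁻¹ by group,
        conj_eq_one_iff] at h
      exact Subtype.ext h
    have hC2 : ∀ t : L, orderOf t = 2 → IsMulCommutative (centralizer ({t} : Set L)) ∧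
        ∀ c ∈ centralizer ({t} : Set L), c ^ 2 = 1 := by
      intro t ht
      have key : ∀ c ∈ centralizer ({t} : Set L), c * c = 1 := fun c hc =>
        hsq t c (by rw [← pow_two, ← ht, pow_orderOf_eq_one])
          (fun h => by rw [h, orderOf_one] at ht; omega) (mem_centralizer_singleton_iff.mp hc)
      exact ⟨comm_of_sq key, fun c hc => by rw [pow_two]; exact key c hc⟩
    have hnn : ¬ ((S.subtype hSL : Sylow 2 L) : Subgroup L).Normal := by
      intro h
      rcases h.eq_bot_or_eq_top with h | h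
      · rw [h, card_bot] at hcardS; omega
      · haveI := comm_of_sq hexpS
        apply hna
        refine ⟨⟨fun a b => congrArg Subtype.val (this.is_comm.comm
          (⟨a, h ▸ mem_top a⟩ : ((S.subtype hSL : Sylow 2 L) : Subgroup L)) ⟨b, h ▸ mem_top b⟩)⟩⟩
    obtain ⟨F, _, _, hF, ⟨ψ⟩⟩ := S1230.result (S.subtype hSL) (not_cyclic hcardS hexpS) hnn hC2
    have hF8 : Fintype.card F = 8 := hF.trans hcardS
    refine ⟨F, inferInstance, inferInstance, hF8, ?_⟩
    obtain ⟨haut, hpsl⟩ := card_aut_psl hF8
    haveI := hLn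
    have hquot : L.index = 3 := by
      let q := (QuotientGroup.mk' L).comp (centralizer ({J} : Set G)).subtype
      have hq : Function.Surjective q := by
        intro x
        obtain ⟨x, rfl⟩ := QuotientGroup.mk'_surjective L x
        obtain ⟨l, hl, hlx⟩ := hfrat x
        refine ⟨⟨l * x, hlx⟩, ?_⟩
        show QuotientGroup.mk' L (l * x) = QuotientGroup.mk' L x
        rw [map_mul, show QuotientGroup.mk' L l = 1 from (QuotientGroup.eq_one_iff l).mpr hl, one_mul]
      have hker : q.ker = L.subgroupOf (centralizer ({J} : Set G)) := by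
        ext y
        simp [q, mem_subgroupOf, MonoidHom.mem_ker]
      have hi : q.ker.index = L.index := by
        rw [index_ker, MonoidHom.range_eq_top.mpr hq, card_top, index_eq_card]
      have h := q.ker.card_mul_index
      rw [hi, hker, ← inf_subgroupOf_right L (centralizer ({J} : Set G)),
        Nat.card_congr (subgroupOfEquivOfLe inf_le_right).toEquiv, hLC, h8, hC] at h
      omega
    have hcard : Nat.card G = 1512 := by
      rw [← L.card_mul_index, hquot, Nat.card_congr ψ.toEquiv, hpsl]
    let φ : G →* MulAut (Matrix.ProjectiveSpecialLinearGroup (Fin 2) F) :=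
      (MulAut.congr ψ).toMonoidHom.comp MulAut.conjNormal
    have hinj : Function.Injective φ := by
      refine (MulAut.congr ψ).injective.comp ((MonoidHom.ker_eq_bot_iff _).mp ?_)
      rw [Subgroup.eq_bot_iff_forall]
      intro x hx
      have hxc : x ∈ centralizer (L : Set G) := mem_centralizer_iff.mpr fun y hy => by
        have h := congrArg (fun f : MulAut L => ((f ⟨y, hy⟩ : L) : G)) (MonoidHom.mem_ker.mp hx)
        simp only [MulAut.conjNormal_apply, MulAut.one_apply] at h
        exact (mul_inv_eq_iff_eq_mul.mp h).symm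
      rw [hcent] at hxc
      exact mem_bot.mp hxc
    haveI : Finite (MulAut (Matrix.ProjectiveSpecialLinearGroup (Fin 2) F)) :=
      Finite.of_injective _ (DFunLike.coe_injective (F :=
        Matrix.ProjectiveSpecialLinearGroup (Fin 2) F ≃* Matrix.ProjectiveSpecialLinearGroup (Fin 2) F))
    exact ⟨MulEquiv.ofBijective φ ((Nat.bijective_iff_injective_and_card φ).mpr ⟨hinj,
      le_antisymm (Nat.card_le_card_of_injective φ hinj) (hcard ▸ haut)⟩)⟩
  · refine Or.inr ⟨rfl, ?_⟩
    haveI : IsSimpleGroup (alternatingGroup (Fin 5)) := alternatingGroup.isSimpleGroup_five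
    haveI : Nontrivial T := ⟨⟨⟨r, hrT⟩, 1, fun h => hr1 (congrArg Subtype.val h)⟩⟩
    haveI := hLn
    haveI : IsSimpleGroup T := IsSimpleGroup.isSimpleGroup_of_surjective e.symm.toMonoidHom
      e.symm.surjective
    have hTL : T ≤ L := by
      rcases (inferInstance : (L.subgroupOf T).Normal).eq_bot_or_eq_top with h | h
      · have : (⟨r, hrT⟩ : T) ∈ L.subgroupOf T := hinv r hrr
        rw [h, mem_bot] at this
        exact absurd (congrArg Subtype.val this) hr1
      · exact subgroupOf_eq_top.mp h
    have hle : centralizer ({J} : Set G) ≤ L := fun x hx => by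
      obtain ⟨y, hy, rfl | rfl⟩ := D.decomp hx
      exacts [hTL hy, mul_mem hJL (hTL hy)]
    haveI := simpleG (htop hle)
    obtain ⟨f, -⟩ := D.exists_equiv e
    exact S1644.result S (comm_of_sq hS) h8 J hJ.1 f

end Cfsg.Agent.H80.CentTwoAlt
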